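import Cfsg.Agent.H99.GenLiftSL
import Cfsg.Agent.H891.Gen.LinRows
import Cfsg.Agent.LieRecognition.FieldSemilinear

/-!
# TEAM GEN, piece F: groups between `SL(V)` and `ΓL(V)` are 2-generated
-/

set_option autoImplicit false

namespace Cfsg.Agent.H99.GenSL

open Matrix Cfsg.Agent.H891.Gen Cfsg.Agent.H440.TwoGen Module

universe u

section

variable {p : ℕ} [hp : Fact p.Prime] {V : Type u} [AddCommGroup V] [Module (ZMod p) V]

/-- additive automorphisms are linear over the prime field -/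
def toZ (e : V ≃+ V) : V ≃ₗ[ZMod p] V := { e with map_smul' := fun c x => ZMod.map_smul e c x }

@[simp] theorem toZ_apply (e : V ≃+ V) (v : V) : (toZ e : V ≃ₗ[ZMod p] V) v = e v := rfl

variable {F : Type*} [Field F] [Module F V] {n : ℕ}

variable (p) in
/-- matrices acting on `V` with respect to a basis -/
noncomputable def jj (b : Basis (Fin (n + 1)) F V) :
    GL (Fin (n + 1)) F →* (V ≃ₗ[ZMod p] V) where
  toFun A := toZ ((LinearMap.GeneralLinearGroup.generalLinearEquiv F V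
    (Units.map (Matrix.toLinAlgEquiv b : Matrix (Fin (n + 1)) (Fin (n + 1)) F →* (V →ₗ[F] V)) A)).toAddEquiv)
  map_one' := by
    rw [map_one, map_one]
    rfl
  map_mul' A B := by
    rw [map_mul, map_mul]
    rfl

theorem jj_apply (b : Basis (Fin (n + 1)) F V) (A : GL (Fin (n + 1)) F) (v : V) :
    jj p b A v = Matrix.toLin b b (A : Matrix (Fin (n + 1)) (Fin (n + 1)) F) v := rfl

theorem repr_jj (b : Basis (Fin (n + 1)) F V) (A : GL (Fin (n + 1)) F) (v : V) :
    b.equivFun (jj p b A v) = (A : Matrix (Fin (n + 1)) (Fin (n + 1)) F) *ᵥ b.equivFun v := by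
  rw [jj_apply]
  exact Matrix.repr_toLin b b _ v

variable (p) in
/-- the coordinatewise field automorphism -/
noncomputable def fl (b : Basis (Fin (n + 1)) F V) (σ : F ≃+* F) : V ≃ₗ[ZMod p] V :=
  toZ ((b.equivFun.toAddEquiv.trans (AddEquiv.piCongrRight fun _ => σ.toAddEquiv)).trans b.equivFun.symm.toAddEquiv)

theorem repr_fl (b : Basis (Fin (n + 1)) F V) (σ : F ≃+* F) (v : V) (i : Fin (n + 1)) :
    b.equivFun (fl p b σ v) i = σ (b.equivFun v i) := by
  show b.equivFun (b.equivFun.symm _) i = _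
  rw [LinearEquiv.apply_symm_apply]
  rfl

theorem fl_smul (b : Basis (Fin (n + 1)) F V) (σ : F ≃+* F) (c : F) (v : V) :
    fl p b σ (c • v) = σ c • fl p b σ v := by
  apply b.equivFun.injective
  funext i
  rw [repr_fl, map_smul, map_smul, Pi.smul_apply, Pi.smul_apply, repr_fl, smul_eq_mul, smul_eq_mul, map_mul]

theorem conj_fl (b : Basis (Fin (n + 1)) F V) (σ : F ≃+* F) (A : GL (Fin (n + 1)) F) :
    fl p b σ * jj p b A * (fl p b σ)⁻¹ = jj p b (GeneralLinearGroup.map (σ : F →+* F) A) := by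
  rw [mul_inv_eq_iff_eq_mul]
  apply LinearEquiv.ext
  intro v
  apply b.equivFun.injective
  funext i
  rw [LinearEquiv.mul_apply, LinearEquiv.mul_apply, repr_fl, repr_jj, repr_jj, Matrix.mulVec, Matrix.mulVec, dotProduct, dotProduct, map_sum]
  refine Finset.sum_congr rfl fun k _ => ?_
  rw [map_mul, repr_fl]
  rfl

theorem jj_injective (b : Basis (Fin (n + 1)) F V) : Function.Injective (jj p b) := by
  intro A B h
  apply Units.ext
  apply (Matrix.toLin b b).injective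
  apply LinearMap.ext
  intro v
  rw [← jj_apply (p := p), ← jj_apply (p := p), h]

/-- linear maps are matrices -/
theorem exists_jj (b : Basis (Fin (n + 1)) F V) {g : V ≃ₗ[ZMod p] V} (hg : ∀ (c : F) (v : V), g (c • v) = c • g v) :
    ∃ A : GL (Fin (n + 1)) F, jj p b A = g := by
  let g' : V ≃ₗ[F] V := { g.toAddEquiv with map_smul' := hg }
  refine ⟨Units.map (LinearMap.toMatrixAlgEquiv b : (V →ₗ[F] V) →* Matrix (Fin (n + 1)) (Fin (n + 1)) F)
    ((LinearMap.GeneralLinearGroup.generalLinearEquiv F V).symm g'), ?_⟩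
  apply LinearEquiv.ext
  intro v
  rw [jj_apply]
  show Matrix.toLin b b (LinearMap.toMatrix b b (g' : V →ₗ[F] V)) v = g v
  rw [Matrix.toLin_toMatrix]
  rfl

theorem det_jj (b : Basis (Fin (n + 1)) F V) (A : GL (Fin (n + 1)) F) (g : V ≃ₗ[F] V) (hg : ∀ v, jj p b A v = g v) :
    GeneralLinearGroup.det A = LinearEquiv.det g := by
  apply Units.ext
  rw [LinearEquiv.coe_det]
  have h1 : (g : V →ₗ[F] V) = Matrix.toLin b b (A : Matrix (Fin (n + 1)) (Fin (n + 1)) F) := by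
    apply LinearMap.ext
    intro v
    rw [← jj_apply (p := p)]
    exact (hg v).symm
  rw [h1, LinearMap.det_toLin]
  rfl

/-- `g` is semilinear with respect to `σ` -/
def Sem (σ : F ≃+* F) (g : V ≃ₗ[ZMod p] V) : Prop := ∀ (c : F) (v : V), g (c • v) = σ c • g v

theorem Sem.mul {σ τ : F ≃+* F} {g h : V ≃ₗ[ZMod p] V} (hg : Sem σ g) (hh : Sem τ h) : Sem (σ * τ) (g * h) := by
  intro c v
  rw [LinearEquiv.mul_apply, LinearEquiv.mul_apply, hh, hg]
  rfl

theorem Sem.inv {σ : F ≃+* F} {g : V ≃ₗ[ZMod p] V} (hg : Sem σ g) : Sem σ⁻¹ g⁻¹ := by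
  intro c v
  apply g.injective
  rw [hg]
  show (g * g⁻¹) (c • v) = σ (σ.symm c) • (g * g⁻¹) v
  rw [mul_inv_cancel, RingEquiv.apply_symm_apply]
  rfl

theorem sem_one : Sem (1 : F ≃+* F) (1 : V ≃ₗ[ZMod p] V) := fun _ _ => rfl

theorem Sem.zpow {σ : F ≃+* F} {g : V ≃ₗ[ZMod p] V} (hg : Sem σ g) (k : ℤ) : Sem (σ ^ k) (g ^ k) := by
  have h1 : ∀ m : ℕ, Sem (σ ^ m) (g ^ m) := by
    intro m
    induction m with
    | zero => rw [pow_zero, pow_zero]; exact sem_one
    | succ m ih => rw [pow_succ, pow_succ]; exact ih.mul hg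
  rcases Int.eq_nat_or_neg k with ⟨m, rfl | rfl⟩
  · rw [zpow_natCast, zpow_natCast]
    exact h1 m
  · rw [_root_.zpow_neg, _root_.zpow_neg, zpow_natCast, zpow_natCast]
    exact (h1 m).inv

/-- semilinear maps are matrices times field automorphisms -/
theorem exists_jj_fl (b : Basis (Fin (n + 1)) F V) {σ : F ≃+* F} {g : V ≃ₗ[ZMod p] V} (hg : Sem σ g) :
    ∃ B : GL (Fin (n + 1)) F, jj p b B * fl p b σ = g := by
  have h1 : Sem (1 : F ≃+* F) (g * (fl p b σ)⁻¹) := by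
    have h2 := hg.mul (Sem.inv (g := fl p b σ) (σ := σ) (fun c v => fl_smul b σ c v))
    rwa [mul_inv_cancel] at h2
  obtain ⟨B, hB⟩ := exists_jj b h1
  exact ⟨B, by rw [hB, inv_mul_cancel_right]⟩

/-- the group between `SL(V)` and `ΓL(V)` is generated by `SL(V)` and two elements -/
theorem exists_pair (b : Basis (Fin (n + 1)) F V) [Finite F] (G : Subgroup (V ≃ₗ[ZMod p] V)) (hG : SemiL F G) :
    ∃ (A B : GL (Fin (n + 1)) F) (σ : F ≃+* F), jj p b A ∈ G ∧ jj p b B * fl p b σ ∈ G ∧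
      G ≤ Subgroup.closure ({jj p b A, jj p b B * fl p b σ} : Set (V ≃ₗ[ZMod p] V)) ⊔
        ((jj p b).comp SpecialLinearGroup.toGL).range := by
  -- the field automorphisms
  let S : Subgroup (F ≃+* F) :=
    { carrier := {σ | ∃ g ∈ G, Sem σ g}
      one_mem' := ⟨1, G.one_mem, sem_one⟩
      mul_mem' := by
        rintro σ τ ⟨g, hg, hg'⟩ ⟨h, hh, hh'⟩
        exact ⟨g * h, G.mul_mem hg hh, hg'.mul hh'⟩
      inv_mem' := by
        rintro σ ⟨g, hg, hg'⟩
        exact ⟨g⁻¹, G.inv_mem hg, hg'.inv⟩ }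
  have hcS : IsCyclic (F ≃+* F) := Cfsg.Agent.LieRecognition.FieldSemilinear.isCyclic_ringAut F
  obtain ⟨⟨σ, y, hy, hyσ⟩, hσ⟩ := IsCyclic.exists_generator (α := ↥S)
  obtain ⟨B, rfl⟩ := exists_jj_fl b hyσ
  -- the determinants
  obtain ⟨⟨δ, A, hA, rfl⟩, hδ⟩ := IsCyclic.exists_generator (α := ↥((G.comap (jj p b)).map GeneralLinearGroup.det))
  refine ⟨A, B, σ, hA, hy, ?_⟩
  intro g hg
  obtain ⟨τ, hτ⟩ := hG g hg
  obtain ⟨k, hk⟩ := hσ ⟨τ, g, hg, hτ⟩
  have hk' : σ ^ k = τ := congrArg Subtype.val hk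
  set y := jj p b B * fl p b σ with hydef
  have h1 : Sem (1 : F ≃+* F) (g * (y ^ k)⁻¹) := by
    have h2 := Sem.mul (σ := τ) hτ (hyσ.zpow k).inv
    rwa [hk', mul_inv_cancel] at h2
  obtain ⟨C, hC⟩ := exists_jj b h1
  have hCG : jj p b C ∈ G := by
    rw [hC]
    exact G.mul_mem hg (G.inv_mem (G.zpow_mem hy k))
  obtain ⟨m, hm⟩ := hδ ⟨GeneralLinearGroup.det C, C, hCG, rfl⟩
  have hm' : GeneralLinearGroup.det A ^ m = GeneralLinearGroup.det C := congrArg Subtype.val hm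
  have h3 : jj p b (C * (A ^ m)⁻¹) ∈ ((jj p b).comp SpecialLinearGroup.toGL).range := by
    apply mem_range
    rw [map_mul, map_inv, map_zpow, hm', mul_inv_cancel]
  have h4 : g = jj p b (C * (A ^ m)⁻¹) * (jj p b A) ^ m * y ^ k := by
    rw [map_mul, map_inv, map_zpow, inv_mul_cancel_right, hC, inv_mul_cancel_right]
  rw [h4]
  have hx' : jj p b A ∈ Subgroup.closure ({jj p b A, y} : Set (V ≃ₗ[ZMod p] V)) :=
    Subgroup.subset_closure (by simp)
  have hy' : y ∈ Subgroup.closure ({jj p b A, y} : Set (V ≃ₗ[ZMod p] V)) :=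
    Subgroup.subset_closure (by simp)
  refine mul_mem (mul_mem ?_ ?_) ?_
  · exact (le_sup_right : _ ≤ Subgroup.closure ({jj p b A, y} : Set (V ≃ₗ[ZMod p] V)) ⊔ _) h3
  · exact (le_sup_left : Subgroup.closure ({jj p b A, y} : Set (V ≃ₗ[ZMod p] V)) ≤ _) (Subgroup.zpow_mem _ hx' m)
  · exact (le_sup_left : Subgroup.closure ({jj p b A, y} : Set (V ≃ₗ[ZMod p] V)) ≤ _) (Subgroup.zpow_mem _ hy' k)

theorem range_le_of_det (b : Basis (Fin (n + 1)) F V) (G : Subgroup (V ≃ₗ[ZMod p] V))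
    (hN : ∀ g : V ≃ₗ[F] V, LinearEquiv.det g = 1 → ∃ h ∈ G, ∀ v, h v = g v) :
    ((jj p b).comp SpecialLinearGroup.toGL).range ≤ G := by
  rintro _ ⟨A, rfl⟩
  let g : V ≃ₗ[F] V := { (jj p b (SpecialLinearGroup.toGL A)).toAddEquiv with
    map_smul' := fun c v => map_smul (Matrix.toLin b b ((SpecialLinearGroup.toGL A : GL (Fin (n + 1)) F) :
      Matrix (Fin (n + 1)) (Fin (n + 1)) F)) c v }
  obtain ⟨h, hh, hv⟩ := hN g (by
    rw [← det_jj (p := p) b (SpecialLinearGroup.toGL A) g (fun v => rfl)]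
    apply Units.ext
    exact A.2)
  have h1 : jj p b (SpecialLinearGroup.toGL A) = h := by
    apply LinearEquiv.ext
    intro v
    exact (hv v).symm
  show jj p b (SpecialLinearGroup.toGL A) ∈ G
  rw [h1]
  exact hh

/-- **groups between `SL(V)` and `ΓL(V)` are 2-generated** -/
theorem twoGen_sl (p : ℕ) [Fact p.Prime] (V : Type u) [AddCommGroup V] [Module (ZMod p) V] [Finite V]
    (G : Subgroup (V ≃ₗ[ZMod p] V)) (F : Type*) [Field F] [Fintype F] [Module F V] (h2 : 2 ≤ finrank F V)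
    (h4 : finrank F V = 2 → 4 ≤ Fintype.card F) (hG : SemiL F G)
    (hN : ∀ g : V ≃ₗ[F] V, LinearEquiv.det g = 1 → ∃ h ∈ G, ∀ v, h v = g v) : TwoGen ↥G := by
  obtain ⟨n, hn⟩ : ∃ n, finrank F V = n + 1 := ⟨finrank F V - 1, by omega⟩
  have hfin : Module.Finite F V := Module.finite_of_finrank_pos (by omega)
  let b : Basis (Fin (n + 1)) F V := Module.finBasisOfFinrankEq F V hn
  have hNG := range_le_of_det b G hN
  obtain ⟨A, B, σ, hA, hB, hgen⟩ := exists_pair b G hG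
  refine twoGen_of_lift' hNG hA hB hgen (lift_gl (by omega) (fun h => h4 (by omega)) _ σ _ (conj_fl b σ) ?_ A B)
  intro h s hs
  have h1 : (SpecialLinearGroup.toGL (SpecialLinearGroup.transvection h s) : GL (Fin (n + 1)) F) = 1 :=
    jj_injective (p := p) b (by rw [hs, map_one])
  have h3 := congrArg (fun M : GL (Fin (n + 1)) F => (M : Matrix (Fin (n + 1)) (Fin (n + 1)) F) 0 1) h1
  have h5 : (1 + single (0 : Fin (n + 1)) 1 s : Matrix (Fin (n + 1)) (Fin (n + 1)) F) 0 1 =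
      (1 : Matrix (Fin (n + 1)) (Fin (n + 1)) F) 0 1 := h3
  rw [Matrix.add_apply, Matrix.one_apply_ne h, Matrix.single_apply_same, zero_add] at h5
  exact h5

end

end Cfsg.Agent.H99.GenSL
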