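import Cfsg.Agent.H99.SylTwoUp
import Cfsg.Agent.H99.SylTwoDown

/-!
# When does a Sylow 2-subgroup of `A_n`, `S_n` lie in a unique maximal subgroup
-/

set_option autoImplicit false

open MulAction Equiv Equiv.Perm
open scoped Pointwise

namespace Cfsg.Agent.H99

section Sylow

theorem exists_conj_mem_sylow {G P : Type*} [Group G] [Finite G] [Group P] {p : ℕ}
    [Fact p.Prime] (R : Sylow p G) (hP : IsPGroup p P) (ψ : P →* G) :
    ∃ g : G, ∀ x, g * ψ x * g⁻¹ ∈ (R : Subgroup G) := by
  have h1 : IsPGroup p ψ.range := hP.of_surjective ψ.rangeRestrict ψ.rangeRestrict_surjective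
  obtain ⟨g, hg⟩ := exists_conj_le (p := p) ψ.range (R : Subgroup G) h1 R.not_dvd_index
  refine ⟨g⁻¹, fun x => ?_⟩
  rw [inv_inv]
  exact hg _ ⟨x, rfl⟩

end Sylow

variable {α : Type*} [Fintype α] [DecidableEq α]

/-- local moves in the centralizer of a perfect matching -/
theorem exists_move (τ : Perm α) (h1 : τ * τ = 1) (h2 : ∀ x, τ x ≠ x) (hα : 6 ≤ Fintype.card α)
    (x y z : α) (hxy : x ≠ y) (hxy' : x ≠ τ y) (hxz : x ≠ z) (hxz' : x ≠ τ z) (hyz : y ≠ z) :
    ∃ g ∈ alternatingGroup α, g * τ = τ * g ∧ g y = z ∧ g x = x := by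
  have hττ : ∀ w, τ (τ w) = w := fun w => by
    rw [← Perm.mul_apply, h1, Perm.one_apply]
  by_cases hz : z = τ y
  · subst hz
    -- choose another pair
    obtain ⟨w, hw⟩ : ∃ w : α, w ∉ ({x, τ x, y, τ y} : Finset α) := by
      by_contra hcon
      push Not at hcon
      have h4 : Finset.univ ⊆ ({x, τ x, y, τ y} : Finset α) := fun w _ => hcon w
      have h5 := (Finset.card_le_card h4).trans (Finset.card_le_four)
      rw [Finset.card_univ] at h5
      omega
    simp only [Finset.mem_insert, Finset.mem_singleton, not_or] at hw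
    obtain ⟨hw1, hw2, hw3, hw4⟩ := hw
    refine ⟨swap y (τ y) * swap w (τ w), ?_, ?_, ?_, ?_⟩
    · rw [mem_alternatingGroup, Perm.sign_mul, sign_swap (h2 y).symm, sign_swap (h2 w).symm]
      rfl
    · have e1 : swap y (τ y) * τ = τ * swap y (τ y) := by
        rw [Equiv.mul_swap_eq_swap_mul, hττ, swap_comm]
      have e2 : swap w (τ w) * τ = τ * swap w (τ w) := by
        rw [Equiv.mul_swap_eq_swap_mul, hττ, swap_comm]
      rw [mul_assoc, e2, ← mul_assoc, e1, mul_assoc]
    · rw [Perm.mul_apply, swap_apply_of_ne_of_ne (Ne.symm hw3), swap_apply_left]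
      intro h
      apply hw4
      rw [h, hττ]
    · have hxw : x ≠ τ w := by
        intro h
        apply hw2
        rw [h, hττ]
      rw [Perm.mul_apply, swap_apply_of_ne_of_ne (Ne.symm hw1) hxw,
        swap_apply_of_ne_of_ne hxy hxy']
  · have hz' : τ z ≠ y := by
      intro h
      apply hz
      rw [← h, hττ]
    have hne : τ y ≠ τ z := fun h => hyz (τ.injective h)
    refine ⟨swap y z * swap (τ y) (τ z), ?_, ?_, ?_, ?_⟩
    · rw [mem_alternatingGroup, Perm.sign_mul, sign_swap hyz, sign_swap hne]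
      rfl
    · have e1 : swap y z * swap (τ y) (τ z) = swap (τ y) (τ z) * swap y z := by
        apply swap_comm_of_ne (h2 y).symm (Ne.symm hz') hz (h2 z).symm
      have e2 : τ * swap y z = swap (τ y) (τ z) * τ := by
        rw [Equiv.mul_swap_eq_swap_mul]
      have e3 : τ * swap (τ y) (τ z) = swap y z * τ := by
        rw [Equiv.mul_swap_eq_swap_mul, hττ, hττ]
      calc swap y z * swap (τ y) (τ z) * τ = swap y z * (τ * swap y z) := by rw [mul_assoc, e2]
        _ = (swap y z * τ) * swap y z := by rw [mul_assoc]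
        _ = τ * swap (τ y) (τ z) * swap y z := by rw [e3]
        _ = τ * (swap y z * swap (τ y) (τ z)) := by rw [mul_assoc, e1]
    · rw [Perm.mul_apply, swap_apply_of_ne_of_ne (Ne.symm (h2 y)) (Ne.symm hz'), swap_apply_left]
    · rw [Perm.mul_apply, swap_apply_of_ne_of_ne hxy' hxz', swap_apply_of_ne_of_ne hxy hxz]

/-- the centralizer of a matching is transitive -/
theorem exists_move' (τ : Perm α) (h1 : τ * τ = 1) (h2 : ∀ x, τ x ≠ x) (hα : 6 ≤ Fintype.card α)
    (y z : α) : ∃ g ∈ alternatingGroup α, g * τ = τ * g ∧ g y = z := by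
  by_cases hyz : y = z
  · exact ⟨1, one_mem _, by rw [one_mul, mul_one], by rw [hyz, Perm.one_apply]⟩
  obtain ⟨x, hx⟩ : ∃ w : α, w ∉ ({z, τ z, y, τ y} : Finset α) := by
    by_contra hcon
    push Not at hcon
    have h4 : Finset.univ ⊆ ({z, τ z, y, τ y} : Finset α) := fun w _ => hcon w
    have h5 := (Finset.card_le_card h4).trans (Finset.card_le_four)
    rw [Finset.card_univ] at h5
    omega
  simp only [Finset.mem_insert, Finset.mem_singleton, not_or] at hx
  obtain ⟨hx1, hx2, hx3, hx4⟩ := hx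
  obtain ⟨g, hg, hg2, hg3, -⟩ := exists_move τ h1 h2 hα x y z hx3 hx4 hx1 hx2 hyz
  exact ⟨g, hg, hg2, hg3⟩

/-- A subgroup of the alternating group containing the stabilizer of a half and the centralizer
of a matching is everything. -/
theorem alt_top (τ : Perm α) (h1 : τ * τ = 1) (h2 : ∀ x, τ x ≠ x) (hα : 8 ≤ Fintype.card α)
    (s : Set α) (hs : 2 * s.ncard = Fintype.card α) (M : Subgroup (alternatingGroup α))
    (hM1 : stabilizer (alternatingGroup α) s ≤ M)
    (hM2 : ∀ g : alternatingGroup α, (g : Perm α) * τ = τ * g → g ∈ M) : M = ⊤ := by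
  have hcs : s.ncard + sᶜ.ncard = Fintype.card α := by
    rw [Set.ncard_add_ncard_compl, Nat.card_eq_fintype_card]
  have hs4 : 4 ≤ s.ncard := by omega
  have hsc4 : 4 ≤ sᶜ.ncard := by omega
  -- transitivity
  haveI htr : IsPretransitive M α := by
    refine ⟨fun x y => ?_⟩
    obtain ⟨g, hg, hg1, hg2⟩ := exists_move' τ h1 h2 (by omega) x y
    exact ⟨⟨⟨g, hg⟩, hM2 _ hg1⟩, hg2⟩
  -- for each subset of half size there is an element of the centralizer not respecting it
  have key : ∀ t : Set α, 2 * t.ncard = Fintype.card α → ¬ IsBlock M t := by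
    intro t ht hb
    have hct : t.ncard + tᶜ.ncard = Fintype.card α := by
      rw [Set.ncard_add_ncard_compl, Nat.card_eq_fintype_card]
    obtain ⟨x, hx⟩ : t.Nonempty := by
      rw [← Set.ncard_pos]; omega
    obtain ⟨y, hy, hyx⟩ : ∃ y ∈ t, y ∉ ({x, τ x} : Set α) := by
      by_contra hcon
      push Not at hcon
      have h5 := Set.ncard_le_ncard (s := t) (t := {x, τ x}) hcon (Set.toFinite _)
      have h6 : ({x, τ x} : Set α).ncard ≤ 2 := (Set.ncard_insert_le _ _).trans
        (by rw [Set.ncard_singleton])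
      omega
    obtain ⟨z, hz, hzx⟩ : ∃ z ∈ tᶜ, z ∉ ({x, τ x} : Set α) := by
      by_contra hcon
      push Not at hcon
      have h5 := Set.ncard_le_ncard (s := tᶜ) (t := {x, τ x}) hcon (Set.toFinite _)
      have h6 : ({x, τ x} : Set α).ncard ≤ 2 := (Set.ncard_insert_le _ _).trans
        (by rw [Set.ncard_singleton])
      omega
    simp only [Set.mem_insert_iff, Set.mem_singleton_iff, not_or] at hyx hzx
    have hττ : ∀ w, τ (τ w) = w := fun w => by
      rw [← Perm.mul_apply, h1, Perm.one_apply]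
    have hxy' : x ≠ τ y := by
      intro h
      apply hyx.2
      rw [h, hττ]
    have hxz' : x ≠ τ z := by
      intro h
      apply hzx.2
      rw [h, hττ]
    obtain ⟨g, hg, hg1, hg2, hg3⟩ := exists_move τ h1 h2 (by omega) x y z (Ne.symm hyx.1) hxy'
      (Ne.symm hzx.1) hxz' (by rintro rfl; exact hz hy)
    have hgM : (⟨g, hg⟩ : alternatingGroup α) ∈ M := hM2 _ hg1
    rcases hb.smul_eq_or_disjoint ⟨⟨g, hg⟩, hgM⟩ with h | h
    · apply hz
      rw [← h]
      exact ⟨y, hy, hg2⟩
    · exact Set.disjoint_left.mp h ⟨x, hx, hg3⟩ hx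
  have hst : s.Nontrivial := by
    rw [← Set.one_lt_ncard_iff_nontrivial]; omega
  have hsct : sᶜ.Nontrivial := by
    rw [← Set.one_lt_ncard_iff_nontrivial]; omega
  have hM1' : stabilizer (alternatingGroup α) sᶜ ≤ M := by rwa [stabilizer_compl]
  have hprim : IsPreprimitive M α := by
    apply IsPreprimitive.mk
    intro B hB
    unfold IsTrivialBlock
    rw [or_iff_not_imp_left]
    intro hB'
    have hBs : ¬ B ⊆ s := by
      intro h
      rcases h.eq_or_ssubset with h | h
      · subst h
        exact key B hs hB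
      · apply hB'
        refine IsBlock.subsingleton_of_ssubset_compl_of_stabilizer_alternatingGroup_le (s := sᶜ)
          hsct (by rwa [compl_compl]) hM1' hB
    have hBsc : ¬ B ⊆ sᶜ := by
      intro h
      rcases h.eq_or_ssubset with h | h
      · subst h
        exact key sᶜ (by omega) hB
      · apply hB'
        exact IsBlock.subsingleton_of_ssubset_compl_of_stabilizer_alternatingGroup_le (s := s)
          hst h hM1 hB
    haveI h8 := alternatingGroup.isMultiplyPretransitive α
    have hle : s.ncard + 1 ≤ Nat.card α - 2 := by rw [Nat.card_eq_fintype_card]; omega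
    haveI h9 : IsMultiplyPretransitive (alternatingGroup α) α (s.ncard + 1) :=
      isMultiplyPretransitive_of_le hle (Nat.sub_le _ _)
    haveI h10 : IsMultiplyPretransitive (alternatingGroup α) α (sᶜ.ncard + 1) := by
      have : sᶜ.ncard = s.ncard := by omega
      rw [this]; exact h9
    have hb1 : sᶜ ⊆ B := hB.compl_subset_of_stabilizer_le_of_not_subset_of_not_subset_compl
      hM1 hBs hBsc
    have hb2 : sᶜᶜ ⊆ B := hB.compl_subset_of_stabilizer_le_of_not_subset_of_not_subset_compl
      hM1' hBsc (by rwa [compl_compl])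
    rw [compl_compl] at hb2
    rw [← Set.univ_subset_iff, ← Set.union_compl_self s]
    exact Set.union_subset hb2 hb1
  exact alternatingGroup.subgroup_eq_top_of_isPreprimitive
    (by rw [Nat.card_eq_fintype_card]; omega) M hM1


section Up

variable {G : Type*} [Group G] [Finite G]

/-- conjugates of even `2`-subgroups of `Perm α` lie in the Sylow `2`-subgroup -/
theorem exists_conj_lift (ι : G →* Perm α) (hι : alternatingGroup α ≤ ι.range)
    (hinj : Function.Injective ι) (R : Sylow 2 G) {P : Type*} [Group P] (hP : IsPGroup 2 P)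
    (Φ : P →* Perm α) (hΦ : ∀ x, Φ x ∈ alternatingGroup α) :
    ∃ g : G, ∀ x, ι g * Φ x * (ι g)⁻¹ ∈ (R : Subgroup G).map ι := by
  let ψ : P →* G := (MonoidHom.ofInjective hinj).symm.toMonoidHom.comp
    (Φ.codRestrict ι.range fun x => hι (hΦ x))
  have hψ : ∀ x, ι (ψ x) = Φ x := by
    intro x
    have h := MonoidHom.ofInjective_apply (hf := hinj) (x := ψ x)
    rw [← h]
    simp [ψ]
  haveI : Fact (Nat.Prime 2) := ⟨Nat.prime_two⟩
  obtain ⟨g, hg⟩ := exists_conj_mem_sylow R hP ψ
  refine ⟨g, fun x => ⟨_, hg x, ?_⟩⟩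
  rw [map_mul, map_mul, hψ, map_inv]

theorem two_nsmul_V4 : ∀ v : V4, 2 • v = 0 := by decide

theorem isPGroup_Q (I : Type) : IsPGroup 2 (Multiplicative (I → V4)) := by
  intro f
  refine ⟨1, ?_⟩
  rw [pow_one]
  apply Multiplicative.toAdd.injective
  change 2 • Multiplicative.toAdd f = 0
  funext i
  exact two_nsmul_V4 _

theorem isPGroup_T (m : ℕ) : IsPGroup 2 (Multiplicative ((Fin m → ZMod 2) × V4)) := by
  intro f
  refine ⟨1, ?_⟩
  rw [pow_one]
  apply Multiplicative.toAdd.injective
  change 2 • Multiplicative.toAdd f = 0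
  have h2 : ∀ v : ZMod 2, 2 • v = 0 := by decide
  refine Prod.ext ?_ (two_nsmul_V4 _)
  funext i
  exact h2 _

/-- transport of permutations along an equivalence -/
def congrHom {β : Type*} (e : β ≃ α) : Perm β →* Perm α where
  toFun σ := e.permCongr σ
  map_one' := by ext x; simp
  map_mul' σ τ := by ext x; simp

theorem up_core {k : ℕ} (hk : 2 ≤ k) (hα : Fintype.card α = 2 ^ k + 1) (ι : G →* Perm α)
    (hι : alternatingGroup α ≤ ι.range) (hinj : Function.Injective ι) (R : Sylow 2 G)
    (M : Subgroup G) (hRM : (R : Subgroup G) ≤ M) (z0 : α)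
    (hz0 : ∀ r ∈ (R : Subgroup G), ι r z0 = z0) (hM : ∃ g ∈ M, ι g z0 ≠ z0) :
    alternatingGroup α ≤ M.map ι := by
  obtain ⟨m, rfl⟩ : ∃ m, k = m + 2 := ⟨k - 2, by omega⟩
  -- the model
  have hcard : Fintype.card (Option ((Fin m → ZMod 2) × V4)) = Fintype.card α := by
    rw [hα, Fintype.card_option, Fintype.card_prod, Fintype.card_prod, Fintype.card_fun,
      ZMod.card, Fintype.card_fin]
    ring
  obtain ⟨e⟩ := Fintype.card_eq.mp hcard
  -- the two groups
  obtain ⟨g, hg⟩ := exists_conj_lift ι hι hinj R (isPGroup_Q (Fin m → ZMod 2))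
    ((congrHom e).comp (phiQ (Fin m → ZMod 2))) (by
      intro x
      rw [mem_alternatingGroup]
      change Perm.sign (e.permCongr _) = 1
      rw [Perm.sign_permCongr, sign_phiQ])
  obtain ⟨h, hh⟩ := exists_conj_lift ι hι hinj R (isPGroup_T m)
    ((congrHom e).comp (phiT (Fin m → ZMod 2))) (by
      intro x
      rw [mem_alternatingGroup]
      change Perm.sign (e.permCongr _) = 1
      rw [Perm.sign_permCongr, sign_phiT])
  have hRM' : (R : Subgroup G).map ι ≤ M.map ι := Subgroup.map_mono hRM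
  -- the second one fixes a point and is transitive on the rest
  have hT : ∀ x y : α, x ≠ ι h (e none) → y ≠ ι h (e none) →
      ∃ g ∈ (R : Subgroup G).map ι, g x = y := by
    intro x y hx hy
    have hco : ∀ x : α, x ≠ ι h (e none) → ∃ w, x = ι h (e (some w)) := by
      intro x hx
      rcases hw : e.symm ((ι h).symm x) with _ | w
      · exfalso
        apply hx
        rw [← hw, Equiv.apply_symm_apply, Equiv.apply_symm_apply]
      · refine ⟨w, ?_⟩
        rw [← hw, Equiv.apply_symm_apply, Equiv.apply_symm_apply]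
    obtain ⟨v, rfl⟩ := hco x hx
    obtain ⟨w, rfl⟩ := hco y hy
    refine ⟨_, hh (Multiplicative.ofAdd (w - v)), ?_⟩
    simp [congrHom, phiT]
  have hTz : ∀ x, (ι h * ((congrHom e).comp (phiT (Fin m → ZMod 2)) x) * (ι h)⁻¹)
      (ι h (e none)) = ι h (e none) := by
    intro x
    simp [congrHom, phiT]
  have hz : z0 = ι h (e none) := by
    by_contra hne
    -- another point
    have : ∃ y : α, y ≠ z0 ∧ y ≠ ι h (e none) := by
      have h1 : 2 < Fintype.card α := by
        rw [hα, pow_add]
        have := Nat.one_le_two_pow (n := m)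
        omega
      obtain ⟨y, hy⟩ : ∃ w : α, w ∉ ({z0, ι h (e none)} : Finset α) := by
        by_contra hcon
        push Not at hcon
        have h4 : Finset.univ ⊆ ({z0, ι h (e none)} : Finset α) := fun w _ => hcon w
        have h5 := (Finset.card_le_card h4).trans (Finset.card_le_two)
        rw [Finset.card_univ] at h5
        omega
      simp only [Finset.mem_insert, Finset.mem_singleton, not_or] at hy
      exact ⟨y, hy.1, hy.2⟩
    obtain ⟨y, hy1, hy2⟩ := this
    obtain ⟨_, ⟨r, hr, rfl⟩, hr2⟩ := hT z0 y hne hy2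
    exact hy1 (hr2.symm.trans (hz0 r hr))
  -- transitivity of M
  have htr0 : ∀ x : α, ∃ g ∈ M.map ι, g z0 = x := by
    intro x
    by_cases hx : x = z0
    · exact ⟨1, one_mem _, by rw [hx, Perm.one_apply]⟩
    · obtain ⟨g, hg, hgz⟩ := hM
      obtain ⟨t, ht, ht2⟩ := hT (ι g z0) x (by rw [← hz]; exact hgz) (by rw [← hz]; exact hx)
      exact ⟨t * ι g, mul_mem (hRM' ht) ⟨g, hg, rfl⟩, ht2⟩
  have htr : ∀ x y : α, ∃ g ∈ M.map ι, g x = y := by
    intro x y
    obtain ⟨a, ha, ha2⟩ := htr0 x
    obtain ⟨b, hb, hb2⟩ := htr0 y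
    refine ⟨b * a⁻¹, mul_mem hb (inv_mem ha), ?_⟩
    rw [← ha2, ← hb2]
    simp
  refine alt_le (e.trans (ι g)) (M.map ι) htr ?_ z0 ?_
  · intro i a b c d hn
    have h1 := hRM' (hg (Multiplicative.ofAdd (Pi.single i (a + b))))
    rw [MonoidHom.comp_apply, phiQ_swap _ i a b c d hn] at h1
    convert h1 using 1
    have h2 : (congrHom e) (swap (some (i, a)) (some (i, b)) * swap (some (i, c)) (some (i, d))) =
        swap (e (some (i, a))) (e (some (i, b))) * swap (e (some (i, c))) (e (some (i, d))) := by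
      rw [map_mul]
      have h3 : ∀ x y, congrHom e (swap x y) = swap (e x) (e y) := by
        intro x y
        ext z
        simp only [congrHom, MonoidHom.coe_mk, OneHom.coe_mk, permCongr_apply, swap_apply_def]
        simp only [Equiv.symm_apply_eq]
        split_ifs <;> simp
      rw [h3, h3]
    rw [h2]
    have h4 : ι g * (swap (e (some (i, a))) (e (some (i, b))) *
        swap (e (some (i, c))) (e (some (i, d)))) * (ι g)⁻¹ =
        (ι g * swap (e (some (i, a))) (e (some (i, b))) * (ι g)⁻¹) *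
        (ι g * swap (e (some (i, c))) (e (some (i, d))) * (ι g)⁻¹) := by group
    rw [h4, conj_swap, conj_swap]
    rfl
  · intro x y hx hy
    rw [hz] at hx hy
    obtain ⟨t, ⟨r, hr, rfl⟩, ht2⟩ := hT x y hx hy
    exact ⟨ι r, ⟨r, hRM hr, rfl⟩, hz0 r hr, ht2⟩

end Up

end Cfsg.Agent.H99
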