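import Mathlib

/-!
# Overgroups of Sylow 2-subgroups of the symmetric and alternating groups of degree `2 ^ k + 1`
-/

set_option autoImplicit false

open MulAction Equiv Equiv.Perm

namespace Cfsg.Agent.H99

/-- the four-group -/
abbrev V4 : Type := ZMod 2 × ZMod 2

section ThreeCycle

variable {α : Type*} [DecidableEq α]

theorem conj_swap (g : Perm α) (a b : α) : g * swap a b * g⁻¹ = swap (g a) (g b) := by
  rw [Equiv.mul_swap_eq_swap_mul, mul_inv_cancel_right]

theorem swap_comm_of_ne {a b c d : α} (h1 : a ≠ c) (h2 : a ≠ d) (h3 : b ≠ c) (h4 : b ≠ d) :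
    swap a b * swap c d = swap c d * swap a b := by
  ext x
  simp only [Perm.mul_apply]
  simp only [swap_apply_def]
  grind

/-- two four-sets meeting in one point give a 3-cycle -/
theorem three_one (M : Subgroup (Perm α)) {r x p q e f g : α} (h : [r, x, p, q, e, f, g].Nodup)
    (h1 : swap r x * swap p q ∈ M) (h2 : swap r e * swap f g ∈ M) :
    ∃ a b c : α, a ≠ b ∧ a ≠ c ∧ b ≠ c ∧ swap a b * swap a c ∈ M := by
  simp only [List.nodup_cons, List.mem_cons, List.not_mem_nil, or_false, not_or] at h
  obtain ⟨⟨h01, h02, h03, h04, h05, h06⟩, ⟨h12, h13, h14, h15, h16⟩, ⟨h23, h24, h25, h26⟩,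
    ⟨h34, h35, h36⟩, ⟨h45, h46⟩, h56, -⟩ := h
  refine ⟨e, x, r, by tauto, by tauto, by tauto, ?_⟩
  have h3 := M.mul_mem (M.mul_mem (M.mul_mem h1 h2) (M.inv_mem h1)) (M.inv_mem h2)
  convert h3 using 1
  ext y
  simp only [mul_inv_rev, swap_inv, Perm.mul_apply]
  simp only [swap_apply_def]
  grind

/-- two four-sets meeting in three points give a 3-cycle -/
theorem three_three (M : Subgroup (Perm α)) {x p q r s : α} (h : [x, p, q, r, s].Nodup)
    (h1 : swap x p * swap q r ∈ M) (h2 : swap p s * swap q r ∈ M) :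
    ∃ a b c : α, a ≠ b ∧ a ≠ c ∧ b ≠ c ∧ swap a b * swap a c ∈ M := by
  simp only [List.nodup_cons, List.mem_cons, List.not_mem_nil, or_false, not_or] at h
  obtain ⟨⟨h01, h02, h03, h04⟩, ⟨h12, h13, h14⟩, ⟨h23, h24⟩, h34, -⟩ := h
  refine ⟨p, x, s, by tauto, by tauto, by tauto, ?_⟩
  have h3 := M.mul_mem h1 h2
  convert h3 using 1
  ext y
  simp only [Perm.mul_apply]
  simp only [swap_apply_def]
  grind

end ThreeCycle

theorem v4_cover : ∀ a : V4, ∃ b c d : V4, [a, b, c, d].Nodup := by decide

theorem v4_fourth : ∀ a b c : V4, [a, b, c].Nodup → ∃ d : V4, [a, b, c, d].Nodup := by decide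

theorem v4_trans : ∀ a b c d v : V4, [a, b, c, d].Nodup →
    v + (a + b) = (swap a b * swap c d) v := by decide

section Up

variable {α : Type*} [Fintype α] [DecidableEq α] {I : Type*}

/-- The 3-cycle in a transitive overgroup. -/
theorem exists_three (e : Option (I × V4) ≃ α) (M : Subgroup (Perm α))
    (htr : ∀ x y : α, ∃ g ∈ M, g x = y) [Nonempty I]
    (hQ : ∀ (i : I) (a b c d : V4), [a, b, c, d].Nodup →
      swap (e (some (i, a))) (e (some (i, b))) * swap (e (some (i, c))) (e (some (i, d))) ∈ M) :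
    ∃ a b c : α, a ≠ b ∧ a ≠ c ∧ b ≠ c ∧ swap a b * swap a c ∈ M := by
  classical
  obtain ⟨i0⟩ := ‹Nonempty I›
  obtain ⟨g, hg, hg0⟩ := htr (e (some (i0, 0))) (e none)
  obtain ⟨b, c, d, hnd⟩ := v4_cover 0
  -- the three other points of the block
  have hinj : Function.Injective (fun v : V4 => g (e (some (i0, v)))) := by
    intro v w h
    have := e.injective (g.injective h)
    simpa using this
  have hnd' := hnd.map hinj
  simp only [List.map_cons, List.map_nil, hg0] at hnd'
  have hC : ∀ a' b' c' d' : V4, [a', b', c', d'].Nodup →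
      swap (g (e (some (i0, a')))) (g (e (some (i0, b')))) *
        swap (g (e (some (i0, c')))) (g (e (some (i0, d')))) ∈ M := by
    intro a' b' c' d' hn
    have h1 := M.mul_mem (M.mul_mem hg (hQ i0 a' b' c' d' hn)) (M.inv_mem hg)
    rw [← conj_swap, ← conj_swap]
    convert h1 using 1
    group
  -- coordinates of points different from `e none`
  have hco : ∀ x : α, x ≠ e none → ∃ (i : I) (v : V4), x = e (some (i, v)) := by
    intro x hx
    rcases h : e.symm x with _ | ⟨i, v⟩
    · exact absurd (by rw [← h, Equiv.apply_symm_apply]) hx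
    · exact ⟨i, v, by rw [← h, Equiv.apply_symm_apply]⟩
  have h4 := hnd
  simp only [List.nodup_cons, List.mem_cons, List.not_mem_nil, or_false, not_or] at hnd' h4
  obtain ⟨⟨h01, h02, h03⟩, ⟨h12, h13⟩, h23, -⟩ := hnd'
  obtain ⟨⟨k01, k02, k03⟩, ⟨k12, k13⟩, k23, -⟩ := h4
  obtain ⟨ip, vp, hp⟩ := hco _ (Ne.symm h01)
  obtain ⟨iq, vq, hq⟩ := hco _ (Ne.symm h02)
  obtain ⟨ir, vr, hr⟩ := hco _ (Ne.symm h03)
  -- a point alone in its block
  have alone : ∀ (i : I) (v : V4) (x p q : α), [e (some (i, v)), x, p, q].Nodup →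
      (∀ w, x ≠ e (some (i, w))) → (∀ w, p ≠ e (some (i, w))) → (∀ w, q ≠ e (some (i, w))) →
      swap (e (some (i, v))) x * swap p q ∈ M →
      ∃ a b c : α, a ≠ b ∧ a ≠ c ∧ b ≠ c ∧ swap a b * swap a c ∈ M := by
    intro i v x p q hn hx hp hq hm
    obtain ⟨b', c', d', hn'⟩ := v4_cover v
    refine three_one M (r := e (some (i, v))) (x := x) (p := p) (q := q) (e := e (some (i, b')))
      (f := e (some (i, c'))) (g := e (some (i, d'))) ?_ hm (hQ i v b' c' d' hn')
    have hinj' : Function.Injective (fun v : V4 => (e (some (i, v)))) := by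
      intro v w h
      simpa using e.injective h
    have hn'' := hn'.map hinj'
    simp only [List.map_cons, List.map_nil] at hn''
    simp only [List.nodup_cons, List.mem_cons, List.not_mem_nil, or_false, not_or] at hn hn'' ⊢
    refine ⟨⟨hn.1.1, hn.1.2.1, hn.1.2.2, hn''.1.1, hn''.1.2.1, hn''.1.2.2⟩,
      ⟨hn.2.1.1, hn.2.1.2, hx _, hx _, hx _⟩, ⟨hn.2.2.1, hp _, hp _, hp _⟩, ⟨hq _, hq _, hq _⟩,
      ⟨hn''.2.1.1, hn''.2.1.2⟩, hn''.2.2.1, by simp⟩
  have none_ne : ∀ (i : I) (w : V4), e none ≠ e (some (i, w)) := by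
    intro i w h
    have := e.injective h
    simp at this
  have blk_ne : ∀ (i j : I) (v w : V4), i ≠ j → e (some (i, v)) ≠ e (some (j, w)) := by
    intro i j v w hij h
    have := e.injective h
    simp only [Option.some.injEq, Prod.mk.injEq] at this
    exact hij this.1
  rw [hp] at h01 h12 h13
  rw [hq] at h02 h12 h23
  rw [hr] at h03 h13 h23
  by_cases hpq : ip = iq
  · by_cases hpr : ip = ir
    · -- all in one block
      subst hpq; subst hpr
      have hn3 : [vp, vq, vr].Nodup := by
        simp only [List.nodup_cons, List.mem_cons, List.not_mem_nil, or_false, not_or]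
        refine ⟨⟨?_, ?_⟩, ?_, by simp⟩
        · rintro rfl; exact h12 rfl
        · rintro rfl; exact h13 rfl
        · rintro rfl; exact h23 rfl
      obtain ⟨vs, hn4⟩ := v4_fourth vp vq vr hn3
      have hm1 := hC 0 b c d hnd
      rw [hg0, hp, hq, hr] at hm1
      have hn4' : [vp, vs, vq, vr].Nodup := by
        simp only [List.nodup_cons, List.mem_cons, List.not_mem_nil, or_false, not_or] at hn4 ⊢
        refine ⟨⟨hn4.1.2.2, hn4.1.1, hn4.1.2.1⟩, ⟨fun h => hn4.2.1.2 h.symm, fun h => hn4.2.2.1 h.symm⟩,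
          hn4.2.1.1, by simp⟩
      have hm2 := hQ ip vp vs vq vr hn4'
      refine three_three M (x := e none) ?_ hm1 hm2
      have hinj' : Function.Injective (fun v : V4 => (e (some (ip, v)))) := by
        intro v w h
        simpa using e.injective h
      have hn'' := hn4.map hinj'
      simp only [List.map_cons, List.map_nil] at hn''
      refine List.nodup_cons.mpr ⟨?_, hn''⟩
      simp only [List.mem_cons, List.not_mem_nil, or_false, not_or]
      exact ⟨none_ne _ _, none_ne _ _, none_ne _ _, none_ne _ _⟩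
    · -- r alone
      have hm1 := hC d 0 b c (by
        simp only [List.nodup_cons, List.mem_cons, List.not_mem_nil, or_false, not_or]
        exact ⟨⟨Ne.symm k03, Ne.symm k13, Ne.symm k23⟩, ⟨k01, k02⟩, k12, by simp⟩)
      rw [hg0, hp, hq, hr] at hm1
      refine alone ir vr (e none) _ _ ?_ (none_ne _) (fun w => blk_ne _ _ _ _ hpr)
        (fun w => blk_ne _ _ _ _ (by rw [← hpq]; exact hpr)) hm1
      simp only [List.nodup_cons, List.mem_cons, List.not_mem_nil, or_false, not_or]
      exact ⟨⟨Ne.symm h03, Ne.symm h13, Ne.symm h23⟩, ⟨h01, h02⟩, h12, by simp⟩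
  · by_cases hpr : ip = ir
    · -- q alone
      have hm1 := hC c 0 b d (by
        simp only [List.nodup_cons, List.mem_cons, List.not_mem_nil, or_false, not_or]
        exact ⟨⟨Ne.symm k02, Ne.symm k12, k23⟩, ⟨k01, k03⟩, k13, by simp⟩)
      rw [hg0, hp, hq, hr] at hm1
      refine alone iq vq (e none) _ _ ?_ (none_ne _) (fun w => blk_ne _ _ _ _ hpq)
        (fun w => blk_ne _ _ _ _ (by rw [← hpr]; exact hpq)) hm1
      simp only [List.nodup_cons, List.mem_cons, List.not_mem_nil, or_false, not_or]
      exact ⟨⟨Ne.symm h02, Ne.symm h12, h23⟩, ⟨h01, h03⟩, h13, by simp⟩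
    · -- p alone
      have hm1 := hC b 0 c d (by
        simp only [List.nodup_cons, List.mem_cons, List.not_mem_nil, or_false, not_or]
        exact ⟨⟨Ne.symm k01, k12, k13⟩, ⟨k02, k03⟩, k23, by simp⟩)
      rw [hg0, hp, hq, hr] at hm1
      refine alone ip vp (e none) _ _ ?_ (none_ne _) (fun w => blk_ne _ _ _ _ (Ne.symm hpq))
        (fun w => blk_ne _ _ _ _ (Ne.symm hpr)) hm1
      simp only [List.nodup_cons, List.mem_cons, List.not_mem_nil, or_false, not_or]
      exact ⟨⟨Ne.symm h01, h12, h13⟩, ⟨h02, h03⟩, h23, by simp⟩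

/-- A transitive group containing the block four-groups and a group transitive on the complement
of a point contains the alternating group. -/
theorem alt_le (e : Option (I × V4) ≃ α) (M : Subgroup (Perm α))
    (htr : ∀ x y : α, ∃ g ∈ M, g x = y) [Nonempty I]
    (hQ : ∀ (i : I) (a b c d : V4), [a, b, c, d].Nodup →
      swap (e (some (i, a))) (e (some (i, b))) * swap (e (some (i, c))) (e (some (i, d))) ∈ M)
    (z : α) (hz : ∀ x y : α, x ≠ z → y ≠ z → ∃ g ∈ M, g z = z ∧ g x = y) :
    alternatingGroup α ≤ M := by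
  have hprim : IsPreprimitive M α := by
    apply isPreprimitive_of_is_two_pretransitive
    rw [is_two_pretransitive_iff]
    intro a b c d hab hcd
    obtain ⟨g1, hg1, h1⟩ := htr a z
    obtain ⟨g2, hg2, h2⟩ := htr c z
    have hb : g1 b ≠ z := fun h => hab (g1.injective (h1.trans h.symm))
    have hd : g2 d ≠ z := fun h => hcd (g2.injective (h2.trans h.symm))
    obtain ⟨k, hk, hkz, hk2⟩ := hz _ _ hb hd
    refine ⟨⟨g2⁻¹ * k * g1, M.mul_mem (M.mul_mem (M.inv_mem hg2) hk) hg1⟩, ?_, ?_⟩
    · change g2⁻¹ (k (g1 a)) = c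
      rw [h1, hkz, ← h2]; simp
    · change g2⁻¹ (k (g1 b)) = d
      rw [hk2]; simp
  obtain ⟨a, b, c, hab, hac, hbc, hm⟩ := exists_three e M htr hQ
  exact alternatingGroup_le_of_isPreprimitive_of_isThreeCycle_mem hprim
    (isThreeCycle_swap_mul_swap_same hab hac hbc) hm

end Up

section Explicit

variable (I : Type) [Fintype I] [DecidableEq I] [AddCommGroup I]

/-- block translations -/
def phiQ : Multiplicative (I → V4) →* Perm (Option (I × V4)) where
  toFun f := optionCongr (prodCongrRight fun i => Equiv.addRight (Multiplicative.toAdd f i))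
  map_one' := by
    ext x y
    rcases x with _ | ⟨i, v⟩ <;> simp
  map_mul' f g := by
    apply Equiv.ext
    intro x
    rcases x with _ | ⟨i, v⟩
    · simp
    · simp [add_comm, add_left_comm, add_assoc]

/-- translations -/
def phiT : Multiplicative (I × V4) →* Perm (Option (I × V4)) where
  toFun f := optionCongr (Equiv.addRight (Multiplicative.toAdd f))
  map_one' := by
    ext x y
    rcases x with _ | ⟨i, v⟩ <;> simp
  map_mul' f g := by
    apply Equiv.ext
    intro x
    rcases x with _ | ⟨i, v⟩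
    · simp
    · simp [add_comm, add_left_comm, add_assoc]

theorem sign_addRight_V4 : ∀ v : V4, Perm.sign (Equiv.addRight v : Perm V4) = 1 := by decide

theorem sign_phiQ (f : Multiplicative (I → V4)) : Perm.sign (phiQ I f) = 1 := by
  change Perm.sign (optionCongr _) = 1
  rw [Equiv.optionCongr_sign, Perm.sign_prodCongrRight]
  exact Finset.prod_eq_one fun i _ => sign_addRight_V4 _

theorem sign_phiT (f : Multiplicative (I × V4)) : Perm.sign (phiT I f) = 1 := by
  change Perm.sign (optionCongr _) = 1
  rw [Equiv.optionCongr_sign]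
  have h : (Equiv.addRight (Multiplicative.toAdd f) : Perm (I × V4)) =
      (prodCongrLeft fun _ : V4 => Equiv.addRight (Multiplicative.toAdd f).1) *
      (prodCongrRight fun _ : I => Equiv.addRight (Multiplicative.toAdd f).2) := by
    ext x <;> simp
  rw [h, Perm.sign_mul, Perm.sign_prodCongrRight, Perm.sign_prodCongrLeft]
  rw [Finset.prod_const, Finset.prod_const, sign_addRight_V4]
  have : (Finset.univ : Finset V4).card = 2 * 2 := by decide
  rw [this, pow_mul, Int.units_sq, one_pow, one_mul]

theorem phiQ_swap (i : I) (a b c d : V4) (hn : [a, b, c, d].Nodup) :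
    phiQ I (Multiplicative.ofAdd (Pi.single i (a + b))) =
      swap (some (i, a)) (some (i, b)) * swap (some (i, c)) (some (i, d)) := by
  apply Equiv.ext
  intro x
  rcases x with _ | ⟨j, v⟩
  · simp [phiQ, swap_apply_def]
  · by_cases hj : j = i
    · subst hj
      have h1 := v4_trans a b c d v hn
      have h2 : phiQ I (Multiplicative.ofAdd (Pi.single j (a + b))) (some (j, v)) =
          some (j, v + (a + b)) := by
        simp [phiQ, add_assoc]
      rw [h2, h1]
      simp only [Perm.mul_apply, swap_apply_def]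
      simp only [Option.some.injEq, Prod.mk.injEq, true_and]
      split_ifs <;> simp_all
    · have h2 : phiQ I (Multiplicative.ofAdd (Pi.single i (a + b))) (some (j, v)) =
          some (j, v) := by
        simp [phiQ, hj]
      rw [h2]
      simp only [Perm.mul_apply, swap_apply_def]
      simp [hj]

end Explicit

end Cfsg.Agent.H99
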